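import Mathlib
import Cfsg.Agent.Lib.Chev.Prime2
import Cfsg.Agent.Lib.Chev.Ree

/-! The element orders of `G₂(q)`. -/

set_option autoImplicit false
set_option linter.unusedSectionVars false

namespace Cfsg.Agent.Chev
open Cfsg.Lie RSys PreRGD Matrix Cfsg.Agent.Generic
open ChevM (KeyOK PG sb xG fm keyOK_G2 memL closedB fl prN)

variable {D : ChevalleyDatum} [Tab D] {c : TabCert} {K : Type*} [Field K]

omit [Tab D] in
theorem evS_replicate {G : Type*} [Group G] (x : ℕ → K → G) (v : ℕ → K) (w : List (ℕ × Pol)) (n : ℕ) :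
    evS x v (List.replicate n w).flatten = evS x v w ^ n := by
  induction n with
  | zero => simp
  | succ n ih => rw [List.replicate_succ, List.flatten_cons, evS_append, ih, pow_succ']

theorem pow_eq_one_of_check (hc : KeyOK D c) {C : Coll} (hC : CollFor D C) (hK : CharOK K C.p) {L : List ℕ} {n : ℕ}
    (h : (closedB D c (memL · L) && decide L.Nodup && decide (∀ r ∈ L, r < D.nroots) &&
      C.check (List.replicate n (L.map fun r => (r, [(1, [r])]))).flatten []) = true)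
    {u : D.group K} (hu : u ∈ (PG D K).US {r | r.val ∈ L}) : u ^ n = 1 := by
  simp only [Bool.and_eq_true, decide_eq_true_eq] at h
  obtain ⟨⟨⟨h1, h2⟩, h3⟩, h4⟩ := h
  obtain ⟨h5, h6⟩ := ChevM.closed_of_check hc h1
  obtain ⟨t, rfl⟩ := (full_xG D K).exists_prod (halfSpace_of_pos h5) h6 (L := fl D L)
    (.of_map Fin.val (by rwa [ChevM.map_val_fl h3])) (by simp [sb]) (show u ∈ (PG D K).US _ by simpa [sb] using hu)
  have := evS_eq_of_check (ChevM.stRel_xG D K) hC hK (fun r => if h : r < D.nroots then t ⟨r, h⟩ else 0) h4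
  rw [evS_replicate, ← ChevM.map_val_fl h3] at this
  simpa [evS, wordVal, Function.comp_def] using this

theorem orderOf_prN {C : Coll} (hC : CollFor D C) (p : ℕ) [Fact p.Prime] [CharP K p] (hp : C.p = p) {L : List ℕ} {n : ℕ}
    {w : List (ℕ × Pol)} (h : (C.check (List.replicate (p ^ n) (oneW L)).flatten w &&
      C.check (List.replicate (p ^ (n + 1)) (oneW L)).flatten []) = true) (hw : evS (xG D K) 0 w ≠ 1) :
    orderOf (prN D K L) = p ^ (n + 1) := by
  rw [Bool.and_eq_true] at h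
  have h1 := evS_eq_of_check (ChevM.stRel_xG D K) hC (hp ▸ charOK_of K p) 0 h.1
  have h2 := evS_eq_of_check (ChevM.stRel_xG D K) hC (hp ▸ charOK_of K p) 0 h.2
  rw [evS_replicate, evS_oneW] at h1 h2
  exact orderOf_eq_prime_pow (fun e => hw (h1.symm.trans e)) h2

theorem commute_tor_x {a : Fin D.rank → Kˣ} {r : Fin D.nroots} (h : chi D a r = 1) (t : K) :
    Commute ((full_xG D K).tor a) (xG D K r t) := by
  have := (full_xG D K).tor_conj a r t
  rwa [h, Units.val_one, one_mul, mul_inv_eq_iff_eq_mul] at this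

theorem zpow_det_G2 {a : Fin chevG2.rank → Kˣ} {r s : ℕ} (hr : a gi0 ^ certG2.car 0 r * a gi1 ^ certG2.car 1 r = 1)
    (hs : a gi0 ^ certG2.car 0 s * a gi1 ^ certG2.car 1 s = 1) :
    a ^ (certG2.car 0 r * certG2.car 1 s - certG2.car 1 r * certG2.car 0 s) = 1 := by
  have h1 := congrArg₂ (fun u v => u ^ certG2.car 1 s * v ^ (-certG2.car 1 r)) hr hs
  have h2 := congrArg₂ (fun u v => u ^ (-certG2.car 0 s) * v ^ certG2.car 0 r) hr hs
  simp only [mul_zpow, ← _root_.zpow_mul, _root_.one_zpow, mul_one, mul_mul_mul_comm, ← _root_.zpow_add] at h1 h2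
  refine gv_ext ?_ ?_ <;> rw [Pi.pow_apply, Pi.one_apply]
  · convert h1 using 1
    rw [show ∀ x y : ℤ, x * y + y * -x = 0 from fun x y => by ring, zpow_zero, mul_one]
    congr 1; ring
  · convert h2 using 1
    rw [show ∀ x y : ℤ, x * -y + y * x = 0 from fun x y => by ring, zpow_zero, one_mul]
    congr 1; ring

/-- The positive roots killing a non-trivial element of the torus. -/
theorem roots_G2 {a : Fin chevG2.rank → Kˣ} (ha : a ≠ 1) :
    (∃ L ∈ [[7, 11], [8, 10], [6, 9], [6, 11], [10, 11]], ∀ r, (rs chevG2).IsPos r ∧ chi _ a r = 1 → r.val ∈ L) ∨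
    a ^ 3 = 1 ∧ ∀ r, (rs chevG2).IsPos r ∧ chi _ a r = 1 → r.val ∈ [6, 10, 11] := by
  classical
  have key : ∀ T ∈ [6, 7, 8, 9, 10, 11].sublists, (∀ r ∈ T, ∀ s ∈ T,
      certG2.car 0 r * certG2.car 1 s - certG2.car 1 r * certG2.car 0 s ≠ 1) →
      (∃ L ∈ [[7, 11], [8, 10], [6, 9], [6, 11], [10, 11]], T ⊆ L) ∨ 6 ∈ T ∧ 10 ∈ T ∧ T ⊆ [6, 10, 11] := by
    decide +kernel
  set T := [6, 7, 8, 9, 10, 11].filter fun r => a gi0 ^ certG2.car 0 r * a gi1 ^ certG2.car 1 r = 1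
  have h1 : ∀ r ∈ T, a gi0 ^ certG2.car 0 r * a gi1 ^ certG2.car 1 r = 1 := fun r hr => by
    simpa using List.of_mem_filter hr
  have h2 : ∀ r, (rs chevG2).IsPos r ∧ chi _ a r = 1 → r.val ∈ T := fun r hr => List.mem_filter.2 ⟨by
    have h3 : 12 ≤ 2 * r.val := (rs_isPos_iff_le r).1 hr.1
    have h4 : r.val < 12 := r.2
    simp; omega, by simpa [chi_G2] using hr.2⟩
  refine (key T (List.mem_sublists.2 List.filter_sublist) fun r hr s hs e => ha ?_).imp
    (fun ⟨L, hL, h⟩ => ⟨L, hL, fun r hr => h (h2 r hr)⟩) fun h => ⟨?_, fun r hr => h.2.2 (h2 r hr)⟩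
  · simpa [e] using zpow_det_G2 (h1 r hr) (h1 s hs)
  · have := zpow_det_G2 (h1 _ h.2.1) (h1 _ h.1)
    rwa [show certG2.car 0 10 * _ - _ = (3 : ℕ) by decide +kernel, zpow_natCast] at this

theorem pow_pm_G2 {w : Equiv.Perm (Fin chevG2.nroots)} (hw : w ∈ (rs chevG2).Aut) {a : Fin chevG2.rank → Kˣ} {q : ℕ}
    (ha : a ∈ TA Kˣ ((rs chevG2).cw w) q) {i : Fin chevG2.rank} (h : chi _ a ((rs chevG2).simple i) = 1) :
    a ^ ((q : ℤ) - 1) = 1 ∨ a ^ ((q : ℤ) + 1) = 1 := by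
  obtain ⟨θ, hθ, z, rfl⟩ : ∃ θ : Fin chevG2.nroots, θ.val ∈ [9, 11] ∧ ∃ z, a = zh ((rs chevG2).cc θ) z := by
    rw [chi_G2] at h
    obtain rfl | rfl : i = gi0 ∨ i = gi1 := (by decide : ∀ i, i = gi0 ∨ i = gi1) i
    · change a gi0 ^ (2 : ℤ) * a gi1 ^ (-1 : ℤ) = 1 at h
      rw [_root_.zpow_neg_one, mul_inv_eq_one] at h
      exact ⟨⟨11, by decide⟩, by decide, a gi0, gv_ext (zpow_one _).symm h.symm⟩
    · change a gi0 ^ (-3 : ℤ) * a gi1 ^ (2 : ℤ) = 1 at h
      rw [_root_.zpow_neg, inv_mul_eq_one] at h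
      refine ⟨⟨9, by decide⟩, by decide, a gi1 / a gi0, gv_ext (show _ = (a gi1 / a gi0) ^ (2 : ℤ) from ?_)
        (show _ = (a gi1 / a gi0) ^ (3 : ℤ) from ?_)⟩ <;> rw [div_zpow, eq_div_iff_mul_eq']
      · rw [← h]; group
      · rw [h]; group
  have key : ∀ θ ∈ [9, 11], ∀ r < 12, len chevG2 r = len chevG2 θ → ∃ α ∈ [-2, -1, 0, 1, 2], ∃ β ∈ [-1, 0, 1],
      α * cor chevG2 θ 0 + β * cor chevG2 θ 1 = 1 ∧ (α * cor chevG2 r 0 + β * cor chevG2 r 1 = 1 ∨
        α * cor chevG2 r 0 + β * cor chevG2 r 1 = -1) := by decide +kernel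
  obtain ⟨α, -, β, -, h1, h2⟩ := key θ hθ (w θ) (w θ).2 (Aut.len_apply hw θ)
  rw [mem_TA, zh_apply, mp_zpow, cw_mulVec_cc hw] at ha
  have e : ∀ j, (orderOf z : ℤ) ∣ (rs chevG2).cc θ j * q - (rs chevG2).cc (w θ) j := fun j => by
    rw [orderOf_dvd_iff_zpow_eq_one, _root_.zpow_sub, _root_.zpow_mul, zpow_natCast, mul_inv_eq_one]
    exact congrFun ha j
  have h3 : (orderOf z : ℤ) ∣ q - (α * cor chevG2 (w θ) 0 + β * cor chevG2 (w θ) 1) := by
    refine (dvd_add ((e gi0).mul_left α) ((e gi1).mul_left β)).trans (dvd_of_eq ?_)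
    change α * (cor chevG2 θ 0 * q - cor chevG2 (w θ) 0) + β * (cor chevG2 θ 1 * q - cor chevG2 (w θ) 1) = _
    linear_combination (q : ℤ) * h1
  refine h2.imp (fun h => ?_) fun h => ?_ <;> rw [← map_zpow, orderOf_dvd_iff_zpow_eq_one.1 (by simpa [h] using h3), map_one]

section unip
variable (p : ℕ) [hp : Fact p.Prime] [CharP K p] {u : chevG2.group K}

theorem pow_U_G2 (hu : u ∈ (PG chevG2 K).U) : u ^ p = 1 ∨ p = 2 ∧ u ^ 8 = 1 ∨ (p = 3 ∨ p = 5) ∧ u ^ p ^ 2 = 1 := by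
  have h0 : u ∈ (PG chevG2 K).US {r | r.val ∈ [6, 7, 8, 9, 10, 11]} := USub_mono (fun r hr => by
    have h3 : 12 ≤ 2 * r.val := (rs_isPos_iff_le r).1 hr
    have h4 : r.val < 12 := r.2
    simp; omega) hu
  have h1 : ∀ r : Fin chevG2.nroots, 2 * (rs chevG2).ht r < 11 := fun r => by
    rw [ChevM.ht_eq_sum]; revert r; decide +kernel
  have h2 := fun n h => pow_eq_one_of_check keyOK_G2 (collFor_G2 p id) (charOK_of K p) (n := n) h h0
  by_cases h : 11 ≤ p
  · exact Or.inl (pow_one p ▸ ChevM.pow_eq_one_of_mem_U p (n := 1) (fun r => by have := h1 r; rw [pow_one]; omega) hu)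
  obtain rfl | rfl | rfl | rfl := (by decide : ∀ p < 11, p.Prime → p = 2 ∨ p = 3 ∨ p = 5 ∨ p = 7) p (by omega) hp.out
  · exact .inr (.inl ⟨rfl, h2 8 (by decide +kernel)⟩)
  · exact .inr (.inr ⟨.inl rfl, h2 9 (by decide +kernel)⟩)
  · exact .inr (.inr ⟨.inr rfl, ChevM.pow_eq_one_of_mem_U 5 (fun r => by have := h1 r; omega) hu⟩)
  · exact .inl (h2 7 (by decide +kernel))

theorem pow_cent_G2 {a : Fin chevG2.rank → Kˣ} (ha : a ≠ 1)
    (hu : u ∈ (PG chevG2 K).US {r | (rs chevG2).IsPos r ∧ chi _ a r = 1}) : u ^ p = 1 ∨ p = 2 ∧ a ^ 3 = 1 ∧ u ^ 4 = 1 := by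
  have h2 := fun (L : List ℕ) n (hL : ∀ r, (rs chevG2).IsPos r ∧ chi _ a r = 1 → r.val ∈ L) h =>
    pow_eq_one_of_check keyOK_G2 (collFor_G2 p id) (charOK_of K p) (n := n) h (USub_mono hL hu)
  obtain h | h := pow_U_G2 p (USub_mono (fun r hr => hr.1) hu)
  · exact .inl h
  have h3 : p ∈ [2, 3, 5] := by simp; omega
  obtain ⟨L, hL, h1⟩ | ⟨h0, h1⟩ := roots_G2 ha
  · exact .inl (h2 L p h1 (by clear * - h3 hL; revert L; revert h3; generalize p = m; revert m; decide +kernel))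
  obtain rfl | rfl | rfl : p = 2 ∨ p = 3 ∨ p = 5 := by omega
  · exact .inr ⟨rfl, h0, h2 _ 4 h1 (by decide +kernel)⟩
  all_goals exact .inl (h2 _ _ h1 (by decide +kernel))

end unip

section finite
variable {F : Type*} [Field F] [Finite F] (p : ℕ) [hp : Fact p.Prime] [CharP F p]
local notation "k" => AlgebraicClosure F
local notation "q" => (Nat.card F : ℤ)

theorem order_dvd_G2 (g : chevG2.group F) : (∃ n ∈ [q ^ 2 - 1, q ^ 2 + q + 1, q ^ 2 - q + 1, p * (q - 1), p * (q + 1)],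
    (orderOf g : ℤ) ∣ n) ∨ p = 2 ∧ (orderOf g ∣ 8 ∨ orderOf g ∣ 12) ∨ (p = 3 ∨ p = 5) ∧ orderOf g ∣ p ^ 2 := by
  have := Fintype.ofFinite F
  obtain ⟨φ, hφ⟩ := exists_frob_closure F
  have A := alg_xG expC_G2 p hφ
  have hi := tor_xG_injective (K := k) expC_G2
  obtain ⟨z, a, u, i, hu, e, e1⟩ := A.exists_jordan hi (fm _ (algebraMap F k) g)
  have hc : Commute (A.full.tor a) u := (ChevM.commute_US (fun r hr t => (commute_tor_x hr.2 t).symm) hu).symm
  have h1 : ∀ n : ℤ, a ^ n = 1 → u ^ n = 1 → (orderOf g : ℤ) ∣ n := fun n h1 h2 => by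
    rw [← orderOf_injective _ (ChevM.fm_injective (algebraMap F k)) g, orderOf_dvd_iff_zpow_eq_one, e, conj_zpow,
      hc.mul_zpow, ← map_zpow, h1, h2]; simp
  have h1' : ∀ n : ℕ, a ^ n = 1 → u ^ n = 1 → orderOf g ∣ n := fun n h2 h3 =>
    Int.natCast_dvd_natCast.1 (h1 n (by simpa using h2) (by simpa using h3))
  have hf : fm _ φ (z * A.full.tor a * z⁻¹) = z * A.full.tor a * z⁻¹ :=
    e1 ▸ (fm_fixed_iff expC_G2 hφ).2 ⟨g ^ i, map_pow _ _ _⟩
  have hW := fun z a => A.exists_W_of_fixed hi (s := (· ^ Nat.card F)) (A.frob.map_tor A.full A.one_lt) (z := z) (a := a)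
  by_cases hu1 : u = 1
  · obtain ⟨w, hw, e2⟩ := hW _ _ hf
    obtain ⟨f, hf, h2⟩ := exists_poly keyOK_G2 ((rs _).W_le_Aut hw) (Fs := [[-1, 0, 1], [1, 1, 1], [1, -1, 1]])
      (by decide +kernel)
    refine .inl ⟨_, ?_, h1 _ (h2 _ a e2) (by simp [hu1])⟩
    simp only [List.mem_cons, List.not_mem_nil, or_false] at hf ⊢
    refine hf.imp (fun h => ?_) (Or.imp (fun h => ?_) fun h => .inl ?_) <;> simp only [h, evPoin, List.foldr] <;> ring
  have h3 : u ^ p = 1 → ∃ n ∈ [q ^ 2 - 1, q ^ 2 + q + 1, q ^ 2 - q + 1, p * (q - 1), p * (q + 1)],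
      (orderOf g : ℤ) ∣ n := fun h => by
    obtain ⟨y, b, j, e2, hb⟩ := A.exists_simple_of_commute hi hc.symm (A.coprime_orderOf_tor a) (pow_orderOf_eq_one _)
      (e := 1) (by simpa using h) hu1
    obtain ⟨w, hw, e3⟩ := hW (z * y) b (by simpa [e2, mul_assoc] using hf)
    have h4 : ∀ n : ℤ, b ^ n = 1 → (orderOf g : ℤ) ∣ p * n := fun n hn => h1 _ (hi (by
      rw [map_zpow, e2, conj_zpow, ← map_zpow, _root_.zpow_mul', hn]; simp)) (by rw [_root_.zpow_mul]; simp [h])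
    rcases pow_pm_G2 ((rs _).W_le_Aut hw) e3 hb with h5 | h5
    all_goals exact ⟨_, by simp, h4 _ h5⟩
  by_cases ha : a = 1
  · exact (pow_U_G2 p (USub_mono (fun r hr => hr.1) hu)).imp h3 (Or.imp (And.imp_right fun h => .inl (h1' _ (by simp [ha]) h))
      (And.imp_right (h1' _ (by simp [ha]))))
  · exact (pow_cent_G2 p ha hu).imp h3 fun h => .inl ⟨h.1, .inr (h1' _ (by rw [show 12 = 3 * 4 from rfl, pow_mul, h.2.1, one_pow])
      (by rw [show 12 = 4 * 3 from rfl, pow_mul, h.2.2, one_pow]))⟩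

include p in
theorem exists_order_G2 {n : ℕ} (h : (n : ℤ) ∈ [q ^ 2 - 1, q ^ 2 + q + 1, q ^ 2 - q + 1, p * (q - 1), p * (q + 1)]) :
    ∃ g : chevG2.group F, orderOf g = n := by
  have := Fintype.ofFinite F
  obtain ⟨φ, hφ⟩ := exists_frob_closure F
  have A := alg_xG expC_G2 p hφ
  have h0 : ((q : ℤ) : k) = 0 := by simpa using A.cast_eq_zero
  have h1 : ∀ l f P Q, cycB chevG2 certG2 l f P Q = true → f.getD 0 0 = 1 ∨ f.getD 0 0 = -1 →
      n = q ^ 2 + (f.getD 0 0 + f.getD 1 0 * q) → ∃ g : chevG2.group F, orderOf g = n := fun l f P Q h h1 e => by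
    obtain ⟨h2, h3⟩ := keyOK_G2.cyc h
    obtain ⟨z, -, h4, h5⟩ := TA_cyclic (by decide) h2 h3 (n := n) (e.trans (by
      congr 1; erw [Fin.sum_univ_two]; simp)) (show (n : k) ≠ 0 by
        rw [← Int.cast_natCast, e, Int.cast_add, Int.cast_add, Int.cast_mul, Int.cast_pow, h0]
        rcases h1 with h | h <;> rw [h] <;> simp)
    exact h4 ▸ (exists_of_TA expC_G2 p (wR_mem l) (h5 ▸ Subgroup.mem_zpowers _)).1
  have h2 : ∀ ε : ℤ, ∀ w ∈ (rs chevG2).W, w ⟨11, by decide⟩ = ⟨11, by decide⟩ →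
      (rs chevG2).cc (w ⟨7, by decide⟩) = ε • (rs chevG2).cc ⟨7, by decide⟩ → ε = 1 ∨ ε = -1 → n = p * (q - ε) →
      ∃ g : chevG2.group F, orderOf g = n := fun ε w hw e1 e2 hε e => by
    obtain ⟨m, hm⟩ := Int.eq_ofNat_of_zero_le (a := q - ε) (by have := A.one_lt; omega)
    obtain ⟨z, rfl, -⟩ := exists_primitive (show (m : k) ≠ 0 by
      rw [← Int.cast_natCast, ← hm, Int.cast_sub, h0]; rcases hε with h | h <;> simp [h])
    obtain ⟨g, hg⟩ := (exists_of_TA expC_G2 p hw (a := zh ((rs chevG2).cc ⟨7, by decide⟩) z) (by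
      rw [mem_TA, zh_apply, mp_zpow, cw_mulVec_cc ((rs _).W_le_Aut hw), e2]
      ext1 j
      rw [Pi.pow_apply, ← zpow_natCast, ← _root_.zpow_mul, ← mul_inv_eq_one, ← _root_.zpow_sub,
        ← orderOf_dvd_iff_zpow_eq_one, ← hm]
      exact ⟨(rs chevG2).cc ⟨7, by decide⟩ j, by simp; ring⟩)).2 _ e1 (by
        rw [zh_apply, chi_coroot, agree_G2.pair, show certG2.pairing _ _ _ = 0 by decide +kernel, zpow_zero])
    refine ⟨g, Nat.cast_injective (R := ℤ) ?_⟩
    rw [hg, orderOf_injective _ fun a b e => by simpa using (show a ^ (1 : ℤ) = b ^ (1 : ℤ) from congrFun e gi0), e, hm]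
    push_cast; ring
  simp only [List.mem_cons, List.not_mem_nil, or_false] at h
  rcases h with h | h | h | h | h
  · exact h1 [7] [-1, 0] [[-1, 0], [1, -1]] [[-1, 0], [-1, -1]] (by decide +kernel) (by decide) (by simp [h]; ring)
  · exact h1 [7, 6, 7, 6] [1, 1] [[-2, 1], [1, 0]] [[0, 1], [1, 2]] (by decide +kernel) (by decide) (by simp [h]; ring)
  · exact h1 [7, 6] [1, -1] [[-2, 1], [-1, 1]] [[-1, 1], [-1, 2]] (by decide +kernel) (by decide) (by simp [h]; ring)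
  · exact h2 1 1 (one_mem _) rfl (by simp) (by decide) h
  · have e := fun r => (keyOK_G2.wB_eq (l := [7]) (by decide) r).symm
    refine h2 (-1) _ (wR_mem [7]) (Fin.ext ((e _).trans (by decide +kernel))) (funext fun j => ?_) (by decide) (by simp [h])
    rw [rs_cc, e]; revert j; decide +kernel

theorem exists_unip_G2 : (p = 2 → ∃ g : chevG2.group F, orderOf g = 8) ∧
    (p = 3 ∨ p = 5 → ∃ g : chevG2.group F, orderOf g = p ^ 2) := by
  refine ⟨?_, ?_⟩
  · rintro rfl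
    exact ⟨_, orderOf_prN (collFor_G2 2 id) 2 rfl (L := [6, 7]) (n := 2) (w := oneW [11]) (by decide +kernel)
      (by simpa [evS_oneW] using ChevM.xG_ne_one ⟨11, by decide⟩ one_ne_zero)⟩
  rintro (rfl | rfl)
  · refine ⟨_, orderOf_prN (collFor_G2 3 id) 3 rfl (L := [6, 7]) (n := 1) (w := [(9, [(-1, [])]), (11, [(-1, [])])])
      (by decide +kernel) fun e => ?_⟩
    have := (full_xG chevG2 F).prod_unique halfSpace_pos (L := [⟨9, by decide⟩, ⟨11, by decide⟩]) (by decide)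
      (by simp only [Set.mem_ofPred_eq, rs_isPos_iff_le]; decide) (t := fun _ => -1) (t' := fun _ => 0)
      (by simpa [ChevM.xG_zero] using e) _ (List.mem_cons_self ..)
    simp at this
  · exact ⟨_, orderOf_prN (collFor_G2 5 id) 5 rfl (L := [6, 7]) (n := 1) (w := [(11, [(-2, [])])]) (by decide +kernel)
      (by simpa using ChevM.xG_ne_one ⟨11, by decide⟩ (t := (-2 : F)) (by
        rw [neg_ne_zero, ← Nat.cast_ofNat, Ne, CharP.cast_eq_zero_iff F 5]; decide))⟩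

theorem exists_twelve_G2 [CharP F 2] : ∃ g : chevG2.group F, orderOf g = 12 := by
  have := Fintype.ofFinite F
  obtain ⟨φ, hφ⟩ := exists_frob_closure F
  have A := alg_xG expC_G2 2 hφ
  obtain ⟨z, hz, -⟩ := exists_primitive (show ((3 : ℕ) : k) ≠ 0 by rw [Ne, CharP.cast_eq_zero_iff k 2]; decide)
  have h1 : orderOf (A.full.tor (Pi.mulSingle gi0 z)) = 3 := by
    rw [orderOf_injective _ (tor_xG_injective expC_G2), orderOf_piMulSingle, hz]
  have h2 := orderOf_prN (K := k) (collFor_G2 2 id) 2 rfl (L := [6, 10]) (n := 1) (w := oneW [11]) (by decide +kernel)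
    (by simpa [evS_oneW] using ChevM.xG_ne_one ⟨11, by decide⟩ one_ne_zero)
  have h3 : ∀ r (hr : r < 12), 3 ∣ certG2.car 0 r → Commute (A.full.tor (Pi.mulSingle gi0 z)) (xG chevG2 k r 1) :=
    fun r hr h => commute_tor_x (r := ⟨r, hr⟩) (by
      rw [chi_single, agree_G2.pair_simple, ← orderOf_dvd_iff_zpow_eq_one, hz]; exact h) 1
  have h6 := h3 6 (by decide) (by decide +kernel)
  simp only [ChevM.prN_cons, ChevM.prN_nil, mul_one] at h2
  rw [show 12 = 3 * 2 ^ (1 + 1) from rfl, ← h1, ← h2, ← (h6.mul_right (h3 10 (by decide)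
    (by decide +kernel))).orderOf_mul_eq_mul_orderOf_of_coprime (by rw [h1, h2]; decide)]
  obtain h | h : Nat.card F % 3 = 1 ∨ Nat.card F % 3 = 2 := by
    have := (A.coprime (n := 3) (by decide)).symm
    rw [Nat.prime_three.coprime_iff_not_dvd] at this; omega
  · refine exists_orderOf_xG expC_G2 2 hφ (c := 1) ?_
    rw [map_mul, map_mul, A.frob.map_tor A.full A.one_lt, ChevM.fm_xG, ChevM.fm_xG, ← Pi.mulSingle_pow, ← pow_mod_orderOf,
      hz, h]
    simp
  have hw : (rs chevG2).sref gi0 ∈ (rs chevG2).W := (rs _).sref_mem_W _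
  have e : ∀ r s (hr : r < 12), ChevM.reflB chevG2 certG2 7 r = s → (PG chevG2 k).nW ((rs _).sref gi0) *
      xG chevG2 k r 1 * ((PG _ k).nW ((rs _).sref gi0))⁻¹ = xG chevG2 k s 1 := fun r s hr hs => by
    obtain ⟨c, hc, h, -⟩ := ChevM.nW_conj_xG (F := k) hw ⟨r, hr⟩
    rw [h, ← refl_simple, ← keyOK_G2.reflB_eq, show c = 1 from hc.elim id fun h => h.trans (CharTwo.neg_eq 1), one_mul,
      ← hs]
    rfl
  have e0 : (PG chevG2 k).nW ((rs _).sref gi0) * A.full.tor (Pi.mulSingle gi0 z ^ Nat.card F) *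
      ((PG _ k).nW ((rs _).sref gi0))⁻¹ = A.full.tor (Pi.mulSingle gi0 z) := (A.full.nW_conj_tor hw _).trans (by
    rw [← Pi.mulSingle_pow, mp_sref, ← pow_mod_orderOf, hz, h, Finset.prod_eq_single gi0 (fun i _ hi => by simp [hi])
      (by simp), Pi.mulSingle_eq_same, ← Pi.mulSingle_mul, show (rs chevG2).C gi0 gi0 = (2 : ℕ) from C_G2 0 0,
      zpow_natCast, mul_inv_eq_iff_eq_mul.2]
    rw [← pow_mul, ← pow_succ', ← pow_mod_orderOf z (2 * 2 + 1), hz])
  refine exists_orderOf_xG expC_G2 2 hφ (c := xG chevG2 k 6 1 * (PG _ k).nW ((rs _).sref gi0)) ?_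
  rw [map_mul, map_mul, A.frob.map_tor A.full A.one_lt, ChevM.fm_xG, ChevM.fm_xG, map_one, show ∀ x n t y : chevG2.group k,
    x * n * (t * (x * y)) * (x * n)⁻¹ = x * (n * t * n⁻¹) * (n * x * n⁻¹) * (n * y * n⁻¹) * x⁻¹ from
      fun _ _ _ _ => by group, e0, e 10 6 (by decide) (by decide +kernel), e 6 10 (by decide) (by decide +kernel),
    ← h6.eq, mul_inv_cancel_right, mul_assoc]

/-- The orders of the maximal cyclic subgroups of `G₂(q)` other than those special to small characteristic. -/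
def ordG2 (p Q : ℕ) : List ℕ := [Q ^ 2 - 1, Q ^ 2 + Q + 1, Q ^ 2 - Q + 1, p * (Q - 1), p * (Q + 1)]

omit hp [CharP F p] in
theorem map_ordG2 : (ordG2 p (Nat.card F)).map Nat.cast =
    [q ^ 2 - 1, q ^ 2 + q + 1, q ^ 2 - q + 1, p * (q - 1), p * (q + 1)] := by
  have hq : 1 ≤ Nat.card F := Nat.card_pos
  have : Nat.card F ≤ Nat.card F ^ 2 := Nat.le_self_pow (by decide) _
  simp [ordG2, hq, this, hq.trans this]

theorem order_dvd_G2' (g : chevG2.group F) : (∃ n ∈ ordG2 p (Nat.card F), orderOf g ∣ n) ∨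
    p = 2 ∧ (orderOf g ∣ 8 ∨ orderOf g ∣ 12) ∨ (p = 3 ∨ p = 5) ∧ orderOf g ∣ p ^ 2 := by
  simpa only [← map_ordG2, List.mem_map, exists_exists_and_eq_and, Int.natCast_dvd_natCast] using order_dvd_G2 p g

theorem exists_order_G2' {n : ℕ} (h : n ∈ ordG2 p (Nat.card F)) : ∃ g : chevG2.group F, orderOf g = n :=
  exists_order_G2 p (map_ordG2 (F := F) p ▸ List.mem_map_of_mem h)

end finite

end Cfsg.Agent.Chev
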