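/-
Subgroups of `U` normalised by `B`: elimination of root components by the torus.
-/
import Cfsg.Agent.Lib.Chev.RGD3
import Cfsg.Agent.Lib.Chev.TabMore
import Cfsg.Agent.Lib.Chev.Misc

set_option autoImplicit false
set_option maxRecDepth 100000

namespace Cfsg.Agent.ChevM

open Cfsg.Lie Cfsg.Agent.Chev Cfsg.Agent.Chev.RSys

/-- The root `k` occurs exactly once in the commutator formula of `r` and `s`, with the constant `c`. -/
def OccOnce (D : ChevalleyDatum) (r s k : ℕ) (c : ℤ) : Prop :=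
  ∃ (i j : ℕ) (L₁ L₂ : List (ℕ × ℤ × ℕ × ℕ)), D.commTerms r s = L₁ ++ (k, c, i, j) :: L₂ ∧
    (∀ e ∈ L₁, e.1 ≠ k) ∧ ∀ e ∈ L₂, e.1 ≠ k

/-- Every positive root is fundamental or occurs once with constant `± 1` for a pair of positive roots. -/
def DecPos (D : ChevalleyDatum) [Good D] : Prop :=
  ∀ k : Fin D.nroots, (rs D).IsPos k → (∃ i, k = (rs D).simple i) ∨
    ∃ (r s : Fin D.nroots) (c : ℤ), (rs D).IsPos r ∧ (rs D).IsPos s ∧ (c = 1 ∨ c = -1) ∧ OccOnce D r s k c

/-- Check of `OccOnce`. -/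
def occB (D : ChevalleyDatum) (r s k : ℕ) (c : ℤ) : Bool :=
  match (D.commTerms r s).dropWhile (fun e => e.1 != k) with
  | [] => false
  | e :: L => e.1 == k && e.2.1 == c && L.all fun e => e.1 != k

theorem occ_of_check {D : ChevalleyDatum} {r s k : ℕ} {c : ℤ} (h : occB D r s k c = true) : OccOnce D r s k c := by
  unfold occB at h
  have h1 := List.takeWhile_append_dropWhile (p := fun e : ℕ × ℤ × ℕ × ℕ => e.1 != k) (l := D.commTerms r s)
  split at h
  · simp at h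
  · rename_i e L he
    simp only [Bool.and_eq_true, beq_iff_eq, List.all_eq_true, bne_iff_ne] at h
    obtain ⟨k', c', i, j⟩ := e
    obtain ⟨⟨rfl, rfl⟩, h3⟩ := h
    refine ⟨i, j, _, L, by rw [← he, h1], fun e he' => ?_, h3⟩
    simpa using List.mem_takeWhile_imp he'

/-- Check of `DecPos`. -/
def decPosB (D : ChevalleyDatum) : Bool :=
  Chev.allLt D.nroots fun k => Nat.blt (2 * k) D.nroots || (anyLt D.rank fun i => Nat.beq k (D.simple i)) ||
    anyLt D.rank fun i => anyLt D.nroots fun s => Nat.ble D.nroots (2 * s) &&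
      (occB D (D.simple i) s k 1 || occB D (D.simple i) s k (-1))

theorem decPos_of_check {D : ChevalleyDatum} [Good D] (h : decPosB D = true) : DecPos D := by
  intro k hk
  have := Chev.allLt_iff.mp h k k.2
  simp only [Bool.or_eq_true, Nat.blt_eq, anyLt_iff, Nat.beq_eq, Bool.and_eq_true, Nat.ble_eq] at this
  rcases this with (h1 | ⟨i, hi, h1⟩) | ⟨i, hi, s, hs, h1, h2⟩
  · have := (rs_isPos_iff_le k).mp hk
    omega
  · exact Or.inl ⟨⟨i, hi⟩, Fin.ext h1⟩
  · right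
    have h3 : (rs D).IsPos ⟨s, hs⟩ := (rs_isPos_iff_le _).mpr h1
    rcases h2 with h2 | h2
    · exact ⟨(rs D).simple ⟨i, hi⟩, ⟨s, hs⟩, 1, (rs D).isPos_simple _, h3, Or.inl rfl, occ_of_check h2⟩
    · exact ⟨(rs D).simple ⟨i, hi⟩, ⟨s, hs⟩, -1, (rs D).isPos_simple _, h3, Or.inr rfl, occ_of_check h2⟩

theorem decPos_slaced (D : ChevalleyDatum) [Good D] [SLaced D] : DecPos D := by
  intro k hk
  refine hk.induction_add (P := fun k => (∃ i, k = (rs D).simple i) ∨
    ∃ (r s : Fin D.nroots) (c : ℤ), (rs D).IsPos r ∧ (rs D).IsPos s ∧ (c = 1 ∨ c = -1) ∧ OccOnce D r s k c)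
    (fun i => Or.inl ⟨i, rfl⟩) fun r i k hr h _ => ?_
  obtain ⟨c, hc, h1⟩ := SLaced.commTerms_eq h
  exact Or.inr ⟨_, r, c, (rs D).isPos_simple i, hr, hc, 1, 1, [], [], h1, by simp, by simp⟩

theorem decPos_G2 : DecPos chevG2 := decPos_of_check (by decide +kernel)
theorem decPos_B2 : DecPos chevB2 := decPos_of_check (by decide +kernel)
theorem decPos_F4 : DecPos chevF4 := decPos_of_check (by decide +kernel)

/-- Some root orthogonal to `r` has a nonzero pairing of absolute value at most `m` with `s`. -/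
def OrthLe (D : ChevalleyDatum) [Good D] (m : ℕ) (r s : Fin D.nroots) : Prop :=
  ∃ k, (rs D).pair k r = 0 ∧ (rs D).pair k s ≠ 0 ∧ ((rs D).pair k s).natAbs ≤ m

/-- Check of `OrthLe`. -/
def orthLeB (D : ChevalleyDatum) (c : TabCert) (m r s : ℕ) : Bool :=
  anyLt D.nroots fun k => decide (c.pairing D k r = 0) && !decide (c.pairing D k s = 0) &&
    Nat.ble (c.pairing D k s).natAbs m

theorem orthLe_of_check {D : ChevalleyDatum} [Good D] {c : TabCert} (h : Agree D c) {m : ℕ} {r s : Fin D.nroots}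
    (h1 : orthLeB D c m r s = true) : OrthLe D m r s := by
  simp only [orthLeB, anyLt_iff, Bool.and_eq_true, decide_eq_true_eq, Bool.not_eq_true', decide_eq_false_iff_not,
    Nat.ble_eq] at h1
  obtain ⟨k, hk, ⟨h1, h2⟩, h3⟩ := h1
  exact ⟨⟨k, hk⟩, by rw [h.pair, h1], by rw [h.pair]; exact h2, by rw [h.pair]; exact h3⟩

theorem orthLe_G2 {r s : Fin chevG2.nroots} (h1 : s ≠ r) (h2 : s ≠ (rs chevG2).neg r) : OrthLe chevG2 3 r s :=
  orthLe_of_check agree_G2 (forall_pairs (p := orthLeB chevG2 certG2 3) (by decide +kernel) h1 h2)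

theorem orthLe_B2 {r s : Fin chevB2.nroots} (h1 : s ≠ r) (h2 : s ≠ (rs chevB2).neg r) : OrthLe chevB2 2 r s :=
  orthLe_of_check agree_B2 (forall_pairs (p := orthLeB chevB2 certB2 2) (by decide +kernel) h1 h2)

theorem orthLe_D4 {r s : Fin chevD4.nroots} (h1 : s ≠ r) (h2 : s ≠ (rs chevD4).neg r) : OrthLe chevD4 2 r s :=
  orthLe_of_check agree_D4 (forall_pairs (p := orthLeB chevD4 certD4 2) (by decide +kernel) h1 h2)

theorem orthLe_F4 {r s : Fin chevF4.nroots} (h1 : s ≠ r) (h2 : s ≠ (rs chevF4).neg r) : OrthLe chevF4 2 r s :=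
  orthLe_of_check agree_F4 (forall_pairs (p := orthLeB chevF4 certF4 2) (by decide +kernel) h1 h2)

/-- The long roots of type G₂. -/
def longG2 (k : ℕ) : Bool := k == 0 || k == 1 || k == 5 || k == 6 || k == 10 || k == 11

theorem orthLe_G2' {r s : Fin chevG2.nroots} (h1 : s ≠ r) (h2 : s ≠ (rs chevG2).neg r) :
    (longG2 r = true ∧ longG2 s = true) ∨ OrthLe chevG2 2 r s := by
  have := forall_pairs (p := fun r s => (longG2 r && longG2 s) || orthLeB chevG2 certG2 2 r s) (by decide +kernel) h1 h2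
  rw [Bool.or_eq_true, Bool.and_eq_true] at this
  exact this.imp id (orthLe_of_check agree_G2)

theorem OrthOne.orthLe {D : ChevalleyDatum} [Good D] (h : OrthOne D true) {r s : Fin D.nroots} (h1 : s ≠ r)
    (h2 : s ≠ (rs D).neg r) : OrthLe D 1 r s := by
  obtain ⟨k, h3, h4⟩ := h r s h1 h2 (Or.inl rfl)
  exact ⟨k, h3, by omega, by omega⟩

variable {D : ChevalleyDatum} [hD : GoodM D] {F : Type*} [Field F]

variable (F) in
/-- A point of the torus that is trivial on `r` and not on `s`. -/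
def Sep (r s : Fin D.nroots) : Prop := ∃ a : Fin D.rank → Fˣ, chi D a r = 1 ∧ chi D a s ≠ 1

theorem OrthLe.sep [Fintype F] {m : ℕ} (hm : m + 1 < Fintype.card F) {r s : Fin D.nroots} (h : OrthLe D m r s) :
    Sep F r s := by
  classical
  obtain ⟨k, h1, h2, h3⟩ := h
  obtain ⟨t, ht⟩ := IsCyclic.exists_ofOrder_eq_natCard (α := Fˣ)
  rw [Nat.card_eq_fintype_card, Fintype.card_units] at ht
  refine ⟨fun i => t ^ (rs D).cc k i, by rw [chi_coroot, h1, zpow_zero], ?_⟩
  rw [chi_coroot, Ne, ← orderOf_dvd_iff_zpow_eq_one, ht]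
  intro h4
  have := Nat.le_of_dvd (Int.natAbs_pos.mpr h2) (Int.natCast_dvd.mp h4)
  omega

theorem lt_of_mem_intv {k r s : Fin D.nroots} (hr : (rs D).IsPos r) (hs : (rs D).IsPos s) (hk : k ∈ (rs D).intv r s) :
    r < k ∧ s < k := by
  rw [rs_lt_iff_keyv, rs_lt_iff_keyv]
  exact phi_lt_of_mem_intv (rs_isPos_iff_keyv.mp hr) (rs_isPos_iff_keyv.mp hs) hk

theorem isPos_of_lt {r s : Fin D.nroots} (hr : (rs D).IsPos r) (h : r < s) : (rs D).IsPos s := by
  rw [rs_isPos_iff_le] at hr ⊢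
  have := Fin.lt_def.mp h
  omega

theorem ideal_gt {b : Fin D.nroots} (hb : (rs D).IsPos b) : (rs D).Ideal {r | (rs D).IsPos r} {r | b < r} :=
  fun _ hr _ hs _ hk => lt_trans hs (lt_of_mem_intv hr (isPos_of_lt hb hs) hk).2

variable {X : Subgroup (D.group F)} (hB : ∀ b ∈ (PG D F).B, ∀ x ∈ X, b * x * b⁻¹ ∈ X)
include hB

theorem X_le_of_mem [Finite F] {b : Fin D.nroots} {c : F} (hc : c ≠ 0) (h : xG D F b c ∈ X) : (PG D F).X b ≤ X := by
  have hx := stRel_xG D F
  have h1 : ∀ t : F, xG D F b (t * t * c) ∈ X := by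
    intro t
    by_cases ht : t = 0
    · rw [ht, zero_mul, zero_mul, hx.zero b.2]; exact one_mem _
    have := hB _ ((PG D F).H_le_B (hG_mem_H fun i => Units.mk0 t ht ^ (rs D).cc b i)) _ h
    rw [hG_conj_xG, chi_coroot, pair_self] at this
    simpa [zpow_ofNat, sq] using this
  intro g hg
  obtain ⟨t, rfl⟩ := mem_X_iff.mp hg
  by_cases h2 : ringChar F = 2
  · obtain ⟨u, hu⟩ := FiniteField.isSquare_of_char_two h2 (t / c)
    have := h1 u
    rwa [← hu, div_mul_cancel₀ _ hc] at this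
  · have h3 : (2 : F) ≠ 0 := Ring.two_ne_zero h2
    have := mul_mem (h1 ((t / c + 1) / 2)) (inv_mem (h1 ((t / c - 1) / 2)))
    rw [hx.inv b.2, hx.add _ _ _ b.2] at this
    convert this using 2
    field_simp
    ring

theorem elim {b : Fin D.nroots} (hb : (rs D).IsPos b) {S₀ : Set (Fin D.nroots)}
    (h₀ : (rs D).Ideal {r | (rs D).IsPos r} S₀) (S : Set (Fin D.nroots)) (hS : (rs D).Ideal {r | (rs D).IsPos r} S)
    (hS' : ∀ r ∈ S, (rs D).IsPos r) (h₀S : S₀ ⊆ S)
    (hsep : ∀ r ∈ S, r ∉ S₀ → (PG D F).X r ≤ X ∨ Sep F r b)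
    (h : ∃ c : F, c ≠ 0 ∧ ∃ u ∈ (PG D F).US S, xG D F b c * u ∈ X) :
    ∃ c : F, c ≠ 0 ∧ ∃ u ∈ (PG D F).US S₀, xG D F b c * u ∈ X := by
  have hx := stRel_xG D F
  induction' hn : (S \ S₀).ncard using Nat.strong_induction_on with n ih generalizing S
  by_cases he : S \ S₀ = ∅
  · rwa [Set.Subset.antisymm (Set.sdiff_eq_empty.mp he) h₀S] at h
  obtain ⟨g, hg, hmin⟩ := Set.exists_min_image (S \ S₀) id (Set.toFinite _) (Set.nonempty_iff_ne_empty.mpr he)
  have hI : (rs D).Ideal {r | (rs D).IsPos r} (S \ {g}) := by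
    intro r hr s hs k hk
    refine ⟨hS r hr s hs.1 hk, ?_⟩
    rintro rfl
    by_cases h1 : s ∈ S₀
    · exact hg.2 (h₀ r hr s h1 hk)
    · exact absurd (hmin s ⟨hs.1, h1⟩) (not_le.mpr (lt_of_mem_intv hr (hS' s hs.1) hk).2)
  have hI' : ∀ r ∈ S \ {g}, (rs D).IsPos r := fun r hr => hS' r hr.1
  have hc : ∀ r, (rs D).IsPos r → ∀ t, ∀ u ∈ (PG D F).US (S \ {g}),
      xG D F r t * u * (xG D F r t)⁻¹ ∈ (PG D F).US (S \ {g}) := fun r hr t u hu =>
    PreRGD.B_conj_US hI hI' ((PG D F).U_le_B ((PG D F).X_le_U hr (xG_mem_X r t))) hu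
  refine ih _ ?_ (S \ {g}) hI hI' (fun r hr => ⟨h₀S hr, by rintro rfl; exact hg.2 hr⟩)
    (fun r hr h1 => hsep r hr.1 h1) ?_ rfl
  · rw [← hn]
    refine Set.ncard_lt_ncard ⟨fun r hr => ⟨hr.1.1, hr.2⟩, fun h1 => (h1 hg).1.2 rfl⟩ (Set.toFinite _)
  obtain ⟨c, hc0, u, hu, h⟩ := h
  have hS2 : S = insert g (S \ {g}) := by rw [Set.insert_sdiff_singleton, Set.insert_eq_of_mem hg.1]
  rw [hS2, PreRGD.US, USub_insert, mem_sup_iff_of_le_normalizer (Subgroup.le_normalizer_iff.mpr fun y hy v hv => by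
    obtain ⟨t, rfl⟩ := mem_X_iff.mp hy
    exact hc g (hS' g hg.1) t v hv)] at hu
  obtain ⟨y, hy, v, hv, rfl⟩ := hu
  rcases hsep g hg.1 hg.2 with h1 | ⟨a, ha, ha'⟩
  · obtain ⟨t, rfl⟩ := mem_X_iff.mp hy
    exact ⟨c, hc0, _, hc g (hS' g hg.1) t v hv, by simpa [mul_assoc] using mul_mem h (inv_mem (h1 hy))⟩
  · obtain ⟨t, rfl⟩ := mem_X_iff.mp hy
    have h2 := hB _ ((PG D F).H_le_B (hG_mem_H a)) _ h
    have h3 : hG D a * (xG D F b c * (xG D F g t * v)) * (hG D a)⁻¹ =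
        xG D F b (chi D a b * c) * (xG D F g t * (hG D a * v * (hG D a)⁻¹)) := by
      have := hG_conj_xG a g t
      rw [ha, Units.val_one, one_mul] at this
      calc _ = (hG D a * xG D F b c * (hG D a)⁻¹) * ((hG D a * xG D F g t * (hG D a)⁻¹) *
          (hG D a * v * (hG D a)⁻¹)) := by group
        _ = _ := by rw [this, hG_conj_xG]
    rw [h3] at h2
    have hv' := (PG D F).H_conj_US (hG_mem_H a) hv
    refine ⟨c - chi D a b * c, fun h4 => ha' ?_, _,
      hc b hb (chi D a b * c) _ (hc g (hS' g hg.1) t _ (mul_mem hv (inv_mem hv'))), ?_⟩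
    · have : (1 - (chi D a b : F)) * c = 0 := by rw [← h4]; ring
      exact Units.ext (by rw [Units.val_one]; exact (sub_eq_zero.mp ((mul_eq_zero.mp this).resolve_right hc0)).symm)
    · have h5 : xG D F b (c - chi D a b * c) = xG D F b c * (xG D F b (chi D a b * c))⁻¹ := by
        rw [hx.inv b.2, hx.add _ _ _ b.2, sub_eq_add_neg]
      rw [h5]
      simpa [mul_assoc] using mul_mem h (inv_mem h2)

theorem X_le_of_lead [Finite F] {b : Fin D.nroots} (hb : (rs D).IsPos b) {S : Set (Fin D.nroots)}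
    (hS : (rs D).Ideal {r | (rs D).IsPos r} S) (hS' : ∀ r ∈ S, (rs D).IsPos r)
    (hsep : ∀ r ∈ S, (PG D F).X r ≤ X ∨ Sep F r b)
    (h : ∃ c : F, c ≠ 0 ∧ ∃ u ∈ (PG D F).US S, xG D F b c * u ∈ X) : (PG D F).X b ≤ X := by
  obtain ⟨c, hc, u, hu, h⟩ := elim hB hb (S₀ := ∅) (fun _ _ _ h => h.elim) S hS hS' (Set.empty_subset _)
    (fun r hr _ => hsep r hr) h
  rw [PreRGD.US, USub_empty, Subgroup.mem_bot] at hu
  rw [hu, mul_one] at h
  exact X_le_of_mem hB hc h

theorem X_le_of_occ [Finite F] {r s b : Fin D.nroots} (hr : (rs D).IsPos r) (hs : (rs D).IsPos s) {c : ℤ}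
    (hc : (c : F) ≠ 0) (h : OccOnce D r s b c) {t u : F} (ht : t ≠ 0) (hu : u ≠ 0)
    (hm : wordVal (xG D F) (D.commWord F r s t u) ∈ X)
    (hlow : ∀ k ∈ (rs D).intv r s, k < b → (PG D F).X k ≤ X)
    (hsep : ∀ k, b < k → (PG D F).X k ≤ X ∨ Sep F k b) : (PG D F).X b ≤ X := by
  obtain ⟨i, j, L₁, L₂, h, h1, h2⟩ := h
  have hk : ∀ e ∈ D.commTerms r s, ∃ h : e.1 < D.nroots, (⟨e.1, h⟩ : Fin D.nroots) ∈ (rs D).intv r s := fun e he => by
    obtain ⟨h1, h2, h3, h4⟩ := commTerms_sound r.2 s.2 he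
    exact ⟨h1, e.2.2.1, e.2.2.2, h2, h3, h4⟩
  have hb : (rs D).IsPos b := by
    obtain ⟨_, h3⟩ := hk (b, c, i, j) (by rw [h]; simp)
    exact hr.of_mem_intv hs h3
  have hN : ∀ L : List (ℕ × ℤ × ℕ × ℕ), (∀ e ∈ L, e ∈ D.commTerms r s) → (∀ e ∈ L, e.1 ≠ b) →
      wordVal (xG D F) (L.map fun c => (c.1, (c.2.1 : F) * (-t) ^ c.2.2.1 * u ^ c.2.2.2)) ∈
        X ⊔ (PG D F).US {k | b < k} := by
    intro L hL hL'
    refine Subgroup.list_prod_mem _ fun y hy => ?_
    simp only [List.map_map, List.mem_map] at hy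
    obtain ⟨e, he, rfl⟩ := hy
    obtain ⟨h3, h4⟩ := hk e (hL e he)
    rcases lt_trichotomy (⟨e.1, h3⟩ : Fin D.nroots) b with h5 | h5 | h5
    · exact Subgroup.mem_sup_left (hlow _ h4 h5 (xG_mem_X ⟨e.1, h3⟩ _))
    · exact absurd (congrArg Fin.val h5) (hL' e he)
    · exact Subgroup.mem_sup_right (xG_mem_US (r := ⟨e.1, h3⟩) h5 _)
  rw [ChevalleyDatum.commWord, h, List.map_append, List.map_cons, wordVal_append, wordVal_cons] at hm
  have h3 := mul_mem (mul_mem (inv_mem (hN L₁ (fun e he => by rw [h]; simp [he]) h1)) (Subgroup.mem_sup_left hm))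
    (inv_mem (hN L₂ (fun e he => by rw [h]; simp [he]) h2))
  simp only [mul_assoc, inv_mul_cancel_left, mul_inv_cancel, mul_one] at h3
  have hS' : ∀ k ∈ {k | b < k}, (rs D).IsPos k := fun k hk => isPos_of_lt hb hk
  rw [mem_sup_iff_of_le_normalizer' (Subgroup.le_normalizer_iff.mpr fun y hy x hx =>
    hB y ((PG D F).U_le_B (USub_mono hS' hy)) x hx)] at h3
  obtain ⟨x, hx, v, hv, e⟩ := h3
  refine X_le_of_lead hB hb (ideal_gt hb) hS' hsep ⟨(c : F) * ((-t) ^ i * u ^ j), ?_, v⁻¹, inv_mem hv, ?_⟩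
  · exact mul_ne_zero hc (mul_ne_zero (pow_ne_zero _ (neg_ne_zero.mpr ht)) (pow_ne_zero _ hu))
  · rw [e]; simpa using hx

theorem commWord_mem {r s : Fin D.nroots} (hr : (rs D).IsPos r) (hs : (rs D).IsPos s)
    (h : (PG D F).X r ≤ X ∨ (PG D F).X s ≤ X) (t u : F) : wordVal (xG D F) (D.commWord F r s t u) ∈ X := by
  by_cases h1 : s = r
  · subst h1
    rw [ChevalleyDatum.commWord, commTerms_eq_nil (chainEntry_self s.2) (chainEntry_self s.2)]
    exact one_mem _
  rw [← (stRel_xG D F).comm' h1 (halfSpace_pos.ne_neg hr hs)]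
  rcases h with h | h
  · have := hB _ (inv_mem ((PG D F).U_le_B ((PG D F).X_le_U hs (xG_mem_X s u)))) _ (inv_mem (h (xG_mem_X r t)))
    simpa [mul_assoc] using mul_mem this (h (xG_mem_X r t))
  · have := hB _ (inv_mem ((PG D F).U_le_B ((PG D F).X_le_U hr (xG_mem_X r t)))) _ (h (xG_mem_X s u))
    simpa [mul_assoc] using mul_mem (inv_mem (h (xG_mem_X s u))) this

omit hB in
theorem ideal_ne_simple (i : Fin D.rank) :
    (rs D).Ideal {r | (rs D).IsPos r} {r | (rs D).IsPos r ∧ r ≠ (rs D).simple i} := by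
  intro r hr s hs k hk
  refine ⟨IsPos.of_mem_intv hr hs.1 hk, ?_⟩
  rintro rfl
  have := two_le_ht_of_mem_intv hr hs.1 hk
  have := hr.ht_pos
  have := hs.1.ht_pos
  have := (rs D).ht_simple i
  omega

variable (X) in
/-- `X` has an element with a nontrivial component at the `i`-th fundamental root. -/
def Lead (i : Fin D.rank) : Prop := ∃ c : F, c ≠ 0 ∧
  ∃ u ∈ (PG D F).US {r | (rs D).IsPos r ∧ r ≠ (rs D).simple i}, xG D F ((rs D).simple i : Fin D.nroots) c * u ∈ X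

theorem UJ_le [Finite F] (hdec : DecPos D) {J : Set (Fin D.rank)} (hJ : ∀ i ∉ J, Lead X i)
    (hsep : ∀ r s, (rs D).IsPos r → (rs D).IsPos s → s ≠ r → (PG D F).X r ≤ X ∨ (PG D F).X s ≤ X ∨ Sep F r s) :
    (PG D F).UJ J ≤ X := by
  have key : ∀ b : Fin D.nroots, (rs D).IsPos b → ¬ (rs D).InSub J b → (PG D F).X b ≤ X := by
    intro b
    induction b using WellFoundedLT.induction with
    | ind b ih =>
    intro hb hbJ
    by_contra hn
    have hsep' : ∀ r, (rs D).IsPos r → r ≠ b → (PG D F).X r ≤ X ∨ Sep F r b := fun r hr h =>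
      (hsep r b hr hb h.symm).imp id fun h => h.resolve_left hn
    rcases hdec b hb with ⟨i, rfl⟩ | ⟨r, s, c, hr, hs, hc, h⟩
    · exact hn (X_le_of_lead hB hb (ideal_ne_simple i) (fun r hr => hr.1) (fun r hr => hsep' r hr.1 hr.2)
        (hJ i fun h => hbJ (inSub_simple.mpr h)))
    · have hbi : b ∈ (rs D).intv r s := by
        obtain ⟨i, j, L₁, L₂, h, -⟩ := h
        obtain ⟨h1, h2, h3, h4⟩ := commTerms_sound r.2 s.2 (c := (b, c, i, j)) (by rw [h]; simp)
        exact ⟨i, j, h2, h3, h4⟩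
      have hrs : ¬ (rs D).InSub J r ∨ ¬ (rs D).InSub J s := by
        by_contra h1
        push Not at h1
        exact hbJ (h1.1.of_mem_intv h1.2 hbi)
      have hlt := lt_of_mem_intv hr hs hbi
      refine hn (X_le_of_occ hB hr hs (by rcases hc with rfl | rfl <;> simp) h one_ne_zero one_ne_zero
        (commWord_mem hB hr hs (hrs.imp (ih r hlt.1 hr) (ih s hlt.2 hs)) 1 1) (fun k hk hkb => ?_)
        fun k hk => hsep' k (isPos_of_lt hb hk) hk.ne')
      refine ih k hkb (hr.of_mem_intv hs hk) ?_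
      rcases hrs with h1 | h1
      · exact (ideal_pos_not_inSub J s (Or.inl hs) r ⟨hr, h1⟩ (by rwa [intv_comm])).2
      · exact (ideal_pos_not_inSub J r (Or.inl hr) s ⟨hs, h1⟩ hk).2
  exact USub_le_iff.mpr fun b hb => key b hb.1 hb.2

omit hB in
/-- The reduction of the theorem on weakly closed unipotent subgroups to the components at fundamental roots. -/
theorem exists_J (hXU : X ≤ (PG D F).U)
    (hwc : ∀ g, (∀ x ∈ X, g * x * g⁻¹ ∈ (PG D F).U) → ∀ x ∈ X, g * x * g⁻¹ ∈ X) :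
    (∀ b ∈ (PG D F).B, ∀ x ∈ X, b * x * b⁻¹ ∈ X) ∧
      ∃ J : Set (Fin D.rank), X ≤ (PG D F).UJ J ∧ ∀ i ∉ J, Lead X i := by
  have hB : ∀ b ∈ (PG D F).B, ∀ x ∈ X, b * x * b⁻¹ ∈ X := fun b hb =>
    hwc b fun x hx => PreRGD.B_conj_U hb (hXU hx)
  refine ⟨hB, {i | ∀ x ∈ X, (PG D F).n i * x * ((PG D F).n i)⁻¹ ∈ X}, fun x hx => ?_, fun i hi => ?_⟩
  · refine (nondeg D F).mem_UJ_of_w0J_conj (hXU hx) ((PG D F).U_le_B (hXU ?_))
    obtain ⟨l, hl, e⟩ := (rs D).mem_WJ_iff.mp (w0J_mem (R := rs D)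
      {i | ∀ x ∈ X, (PG D F).n i * x * ((PG D F).n i)⁻¹ ∈ X})
    have h1 : ∀ l : List (Fin D.rank), (∀ i ∈ l, ∀ x ∈ X, (PG D F).n i * x * ((PG D F).n i)⁻¹ ∈ X) →
        ∀ x ∈ X, (PG D F).nw l * x * ((PG D F).nw l)⁻¹ ∈ X := by
      intro l
      induction l with
      | nil => simp
      | cons i l ih =>
        intro h x hx
        simpa [mul_assoc] using h i (by simp) _ (ih (fun j hj => h j (by simp [hj])) x hx)
    have h2 := h1 l hl _ (hB _ ((PG D F).H_le_B (inv_mem ((PG D F).nW_inv_mul_nw l))) x hx)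
    rw [← e]
    simpa [mul_assoc] using h2
  · by_contra hn
    refine hi (hwc _ fun x hx => ?_)
    obtain ⟨v, hv, y, hy, rfl⟩ := (PG D F).exists_UJ_mul_X i (hXU hx)
    obtain ⟨c, rfl⟩ := mem_X_iff.mp hy
    by_cases hc : c = 0
    · rw [hc, (stRel_xG D F).zero ((rs D).simple i).2, mul_one]
      exact (PG D F).UJ_le_U _ ((PG D F).n_conj_UJ (Set.mem_singleton i) hv)
    · have := PreRGD.B_conj_US (ideal_ne_simple i) (fun r hr => hr.1)
        (inv_mem ((PG D F).U_le_B ((PG D F).X_le_U ((rs D).isPos_simple i) hy)))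
        (u := v) (by simpa only [PreRGD.UJ, pos_not_inSub_singleton] using hv)
      exact absurd ⟨c, hc, _, this, by simpa [mul_assoc] using hx⟩ hn

theorem X_le_of_single [Finite F] {r s b : Fin D.nroots} (hr : (rs D).IsPos r) (hs : (rs D).IsPos s)
    (h : (PG D F).X r ≤ X ∨ (PG D F).X s ≤ X) {c : ℤ} (hc : (c : F) ≠ 0)
    (h1 : D.commTerms r s = [((b : ℕ), c, 1, 1)]) : (PG D F).X b ≤ X := by
  have := commWord_mem hB hr hs h (-1 : F) 1
  rw [ChevalleyDatum.commWord, h1] at this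
  exact X_le_of_mem hB hc (by simpa using this)

end Cfsg.Agent.ChevM

namespace Cfsg.Agent.ChevM

open Cfsg.Lie Cfsg.Agent.Chev Cfsg.Agent.Chev.RSys

variable {F : Type*} [Field F]

theorem G2_long [Finite F] {X : Subgroup (chevG2.group F)} (hB : ∀ b ∈ (PG chevG2 F).B, ∀ x ∈ X, b * x * b⁻¹ ∈ X)
    (h3 : ((3 : ℤ) : F) ≠ 0) (hsep : ∀ r s : Fin chevG2.nroots, (rs chevG2).IsPos r → (rs chevG2).IsPos s → s ≠ r →
      (longG2 r = true ∧ longG2 s = true) ∨ Sep F r s) {i : Fin chevG2.rank} (hi : Lead X i) :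
    (PG chevG2 F).X ⟨10, by decide⟩ ≤ X ∧ (PG chevG2 F).X ⟨11, by decide⟩ ≤ X := by
  have hp : ∀ (r : ℕ) (h : r < chevG2.nroots), 6 ≤ r → (rs chevG2).IsPos ⟨r, h⟩ := fun r h h1 =>
    (rs_isPos_iff_le _).mpr (by show 12 ≤ 2 * r; omega)
  have h6 := hp 6 (by decide) (by decide)
  have h7 := hp 7 (by decide) (by decide)
  have h8 := hp 8 (by decide) (by decide)
  have h9 := hp 9 (by decide) (by decide)
  have hsep' : ∀ r s : Fin chevG2.nroots, (rs chevG2).IsPos r → (rs chevG2).IsPos s → s ≠ r →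
      longG2 r = false ∨ longG2 s = false → Sep F r s := fun r s hr hs h h1 =>
    (hsep r s hr hs h).resolve_left fun h2 => by simp [h2.1, h2.2] at h1
  have h1 : ∃ c : F, c ≠ 0 ∧ wordVal (xG chevG2 F) (chevG2.commWord F 7 6 1 c) ∈ X := by
    obtain ⟨i, hi'⟩ := i
    have : i < 2 := hi'
    interval_cases i
    · have h2 : (PG chevG2 F).X ⟨7, by decide⟩ ≤ X :=
        X_le_of_lead hB h7 (ideal_ne_simple ⟨0, hi'⟩) (fun r hr => hr.1)
          (fun r hr => Or.inr (hsep' r _ hr.1 h7 (Ne.symm hr.2) (Or.inr rfl))) hi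
      exact ⟨1, one_ne_zero, commWord_mem hB h7 h6 (Or.inl h2) 1 1⟩
    · obtain ⟨c, hc, v, hv, h⟩ := elim hB h6 (ideal_gt h9) _ (ideal_ne_simple ⟨1, hi'⟩) (fun r hr => hr.1)
        (fun r hr => ⟨isPos_of_lt h9 hr, by rintro rfl; exact absurd (show 9 < 6 from hr) (by decide)⟩)
        (fun r hr h1 => Or.inr (hsep' r _ hr.1 h6 (Ne.symm hr.2) (Or.inl (by
          have h2 := (rs_isPos_iff_le r).mp hr.1
          have h4 : (r : ℕ) ≠ 6 := fun h => hr.2 (Fin.ext h)
          have h5 : ¬ 9 < (r : ℕ) := h1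
          obtain ⟨r, hr'⟩ := r
          have h6 : 12 ≤ 2 * r := h2
          simp only at h4 h5
          have : r = 7 ∨ r = 8 ∨ r = 9 := by omega
          rcases this with rfl | rfl | rfl <;> rfl)))) hi
      refine ⟨c, hc, ?_⟩
      have hx := stRel_xG chevG2 F
      have hcv : v ∈ Subgroup.centralizer {xG chevG2 F 7 1} := by
        refine USub_le_iff.mpr (fun r hr y hy => ?_) hv
        obtain ⟨t, rfl⟩ := mem_X_iff.mp hy
        obtain ⟨r, hr'⟩ := r
        have h4 : 9 < r := hr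
        have h5 : r < 12 := hr'
        have h6 := hx.comm 7 r 1 t (by decide) hr' (by omega) (by show r ≠ 4; omega)
        have h7 : chevG2.commTerms 7 r = [] := by
          have : r = 10 ∨ r = 11 := by omega
          rcases this with rfl | rfl <;> decide +kernel
        rw [ChevalleyDatum.commWord, h7, List.map_nil, wordVal_nil] at h6
        rw [Subgroup.mem_centralizer_singleton_iff]
        calc _ = xG chevG2 F 7 1 * xG chevG2 F r t * ((xG chevG2 F r t)⁻¹ * (xG chevG2 F 7 1)⁻¹ * xG chevG2 F r t *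
            xG chevG2 F 7 1) := by group
          _ = _ := by rw [h6, mul_one]
      rw [Subgroup.mem_centralizer_singleton_iff] at hcv
      rw [← hx.comm 7 6 1 c (by decide) (by decide) (by decide) (by decide)]
      have hvB := (PG chevG2 F).U_le_B (USub_mono (fun r hr => isPos_of_lt h9 hr) hv)
      have h4 := hB _ (inv_mem ((PG chevG2 F).U_le_B ((PG chevG2 F).X_le_U h7 (xG_mem_X _ 1)))) _ h
      have h5 := hB _ hvB _ (mul_mem (inv_mem h) h4)
      convert h5 using 1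
      simp only [mul_assoc, mul_inv_rev, inv_inv, mul_inv_cancel_left]
      rw [← mul_assoc v, hcv, mul_assoc, mul_inv_cancel, mul_one]
  obtain ⟨c, hc, h1⟩ := h1
  have h8' : (PG chevG2 F).X ⟨8, by decide⟩ ≤ X :=
    X_le_of_occ hB h7 h6 (c := -1) (by simp) (occ_of_check (by decide +kernel)) one_ne_zero hc h1
      (fun k hk h => by
        have := Fin.lt_def.mp (lt_of_mem_intv h7 h6 hk).1
        have := Fin.lt_def.mp h
        simp only at *
        omega)
      fun k hk => Or.inr (hsep' k _ (isPos_of_lt h8 hk) h8 hk.ne (Or.inr rfl))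
  have h9' : (PG chevG2 F).X ⟨9, by decide⟩ ≤ X :=
    X_le_of_occ hB h7 h6 (c := 1) (by simp) (occ_of_check (by decide +kernel)) one_ne_zero hc h1
      (fun k hk h => by
        have := Fin.lt_def.mp (lt_of_mem_intv h7 h6 hk).1
        have := Fin.lt_def.mp h
        simp only at *
        rwa [show k = ⟨8, by decide⟩ from Fin.ext (by simp only; omega)])
      fun k hk => Or.inr (hsep' k _ (isPos_of_lt h9 hk) h9 hk.ne (Or.inr rfl))
  exact ⟨X_le_of_single hB h7 h9 (Or.inr h9') h3 (by decide +kernel),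
    X_le_of_single hB h8 h9 (Or.inr h9') h3 (by decide +kernel)⟩

theorem eq_UJ_of_weaklyClosed [Fintype F] {D : ChevalleyDatum} [GoodM D] (hD : IsTab D) (h2 : Fintype.card F ≠ 2)
    (h3 : D ∈ [chevG2, chevB2, chevD4, chevF4] → Fintype.card F ≠ 3) {X : Subgroup (D.group F)}
    (hXU : X ≤ (PG D F).U) (hwc : ∀ g, (∀ x ∈ X, g * x * g⁻¹ ∈ (PG D F).U) → ∀ x ∈ X, g * x * g⁻¹ ∈ X) :
    ∃ J, X = (PG D F).UJ J := by
  obtain ⟨hB, J, h1, hJ⟩ := exists_J hXU hwc
  refine ⟨J, le_antisymm h1 ?_⟩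
  have hq := Fintype.one_lt_card (α := F)
  have key : ∀ m, m + 1 < Fintype.card F → DecPos D →
      (∀ r s : Fin D.nroots, s ≠ r → s ≠ (rs D).neg r → OrthLe D m r s) → (PG D F).UJ J ≤ X := fun m hm h h' =>
    UJ_le hB h hJ fun r s hr hs h4 => Or.inr (Or.inr ((h' r s h4 (halfSpace_pos.ne_neg hr hs)).sep hm))
  rcases hD.cases with rfl | rfl | rfl | rfl | rfl | rfl | rfl
  · have h3 := h3 (by simp)
    by_cases h4 : Fintype.card F = 4
    · by_cases h5 : J = Set.univ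
      · rw [h5, PreRGD.UJ_univ]; exact bot_le
      obtain ⟨i, hi⟩ := (Set.ne_univ_iff_exists_notMem J).1 h5
      have hsep : ∀ r s : Fin chevG2.nroots, (rs chevG2).IsPos r → (rs chevG2).IsPos s → s ≠ r →
          (longG2 r = true ∧ longG2 s = true) ∨ Sep F r s := fun r s hr hs h =>
        (orthLe_G2' h (halfSpace_pos.ne_neg hr hs)).imp id fun h => h.sep (by omega)
      have h6 : ((3 : ℤ) : F) ≠ 0 := by
        have h7 := FiniteField.cast_card_eq_zero F
        rw [h4] at h7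
        intro h8
        have : (1 : F) = ((4 : ℕ) : F) - ((3 : ℤ) : F) := by push_cast; ring
        rw [h7, h8, sub_zero] at this
        exact one_ne_zero this
      obtain ⟨h10, h11⟩ := G2_long hB h6 hsep (hJ i hi)
      have h7 : ∀ r : Fin chevG2.nroots, (rs chevG2).IsPos r → longG2 r = true → (r : ℕ) ≠ 6 →
          (PG chevG2 F).X r ≤ X := by
        rintro ⟨r, hr⟩ h8 h9 h12
        have h13 : 12 ≤ 2 * r := (rs_isPos_iff_le _).mp h8
        simp only [longG2, Bool.or_eq_true, beq_iff_eq] at h9 h12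
        have : r = 10 ∨ r = 11 := by omega
        rcases this with rfl | rfl <;> assumption
      refine UJ_le hB decPos_G2 hJ fun r s hr hs h => ?_
      rcases hsep r s hr hs h with h8 | h8
      · by_cases h9 : (r : ℕ) = 6
        · exact Or.inr (Or.inl (h7 s hs h8.2 fun h12 => h (Fin.ext (h12.trans h9.symm))))
        · exact Or.inl (h7 r hr h8.1 h9)
      · exact Or.inr (Or.inr h8)
    · exact key 3 (by omega) decPos_G2 fun _ _ => orthLe_G2
  · exact key 2 (by have := h3 (by simp); omega) decPos_B2 fun _ _ => orthLe_B2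
  · exact key 2 (by have := h3 (by simp); omega) (decPos_slaced _) fun _ _ => orthLe_D4
  · exact key 2 (by have := h3 (by simp); omega) decPos_F4 fun _ _ => orthLe_F4
  · exact key 1 (by omega) (decPos_slaced _) fun _ _ => OrthOne.orthLe orthOne_E6
  · exact key 1 (by omega) (decPos_slaced _) fun _ _ => OrthOne.orthLe orthOne_E7
  · exact key 1 (by omega) (decPos_slaced _) fun _ _ => OrthOne.orthLe orthOne_E8

end Cfsg.Agent.ChevM
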